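import Cfsg.Agent.Lib.Extraspecial.Quot

/-!
# The centraliser of a transvection over the field with two elements
-/

namespace Cfsg.Lib.ES.Tv

open Subgroup Matrix
open scoped commutatorElement

variable {n : ℕ}

theorem exists_equiv_map {F V : Type*} [Field F] [AddCommGroup V] [Module F V] [Module.Finite F V] {v w : V}
    (hv : v ≠ 0) (hw : w ≠ 0) : ∃ T : V ≃ₗ[F] V, T v = w := by
  obtain ⟨g, hg⟩ := Submodule.exists_linearEquiv_restrict_eq
    ((LinearEquiv.toSpanNonzeroSingleton F V v hv).symm ≪≫ₗ LinearEquiv.toSpanNonzeroSingleton F V w hw)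
  refine ⟨g, ?_⟩
  have := hg ⟨v, Submodule.mem_span_singleton_self v⟩
  rw [LinearEquiv.trans_apply, ← LinearEquiv.toSpanNonzeroSingleton_one F V v hv,
    LinearEquiv.symm_apply_apply, LinearEquiv.toSpanNonzeroSingleton_one,
    LinearEquiv.toSpanNonzeroSingleton_one] at this
  exact this.symm

theorem pCore_GL (hn : 1 ≤ n) : pCore 2 (GL (Fin n) (ZMod 2)) = ⊥ := by
  refine Core.pCore_eq_bot_iff.2 fun N hN hp => ?_
  have h0 : (0 : Fin n → ZMod 2) ∈ MulAction.fixedPoints N (Fin n → ZMod 2) := fun g => smul_zero _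
  obtain ⟨v, hv, hne⟩ := hp.exists_fixed_point_of_prime_dvd_card_of_fixed_point (Fin n → ZMod 2)
    (by rw [Nat.card_fun, Nat.card_zmod, Nat.card_eq_fintype_card, Fintype.card_fin]
        exact dvd_pow_self 2 (by omega)) h0
  refine eq_bot_iff.2 fun g hg => mem_bot.2 ?_
  have key : ∀ w : Fin n → ZMod 2, (g : Matrix _ _ _) *ᵥ w = w := fun w => by
    by_cases hw : w = 0
    · rw [hw, mulVec_zero]
    obtain ⟨T, hT⟩ := exists_equiv_map (F := ZMod 2) hne.symm hw
    let a : GL (Fin n) (ZMod 2) := (GeneralLinearGroup.toLin (n := Fin n) (R := ZMod 2)).symm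
      (LinearMap.GeneralLinearGroup.ofLinearEquiv T)
    have ha : (a : Matrix _ _ _) *ᵥ v = w := by
      rw [← hT]
      have : GeneralLinearGroup.toLin a = LinearMap.GeneralLinearGroup.ofLinearEquiv T :=
        MulEquiv.apply_symm_apply _ _
      have h2 := congrArg (fun x : LinearMap.GeneralLinearGroup (ZMod 2) (Fin n → ZMod 2) => x.1 v) this
      simpa using h2
    have h1 : ((a⁻¹ * g * a : GL _ _) : Matrix _ _ _) *ᵥ v = v := hv ⟨a⁻¹ * g * a, hN.conj_mem' g hg a⟩
    have h2 : (g : Matrix (Fin n) (Fin n) (ZMod 2)) * a = a * (a⁻¹ * g * a : GL _ _) := by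
      rw [← Units.val_mul, ← Units.val_mul]; congr 1; group
    rw [← ha, mulVec_mulVec, h2, ← mulVec_mulVec, h1]
  exact Units.ext (toLin'.injective (LinearMap.ext fun w => by simpa using key w))

/-- The block matrices of the centraliser of the transvection `1 + E₀₁`. -/
def blk (a b : Fin n → ZMod 2) (c : ZMod 2) (A : Matrix (Fin n) (Fin n) (ZMod 2)) :
    Matrix (Fin (n + 2)) (Fin (n + 2)) (ZMod 2) :=
  of (Fin.cons (Fin.cons 1 (Fin.cons c a)) (Fin.cons (Fin.cons 0 (Fin.cons 1 0))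
    fun i => Fin.cons 0 (Fin.cons (b i) (A i))))

theorem ext3 {X Y : Matrix (Fin (n + 2)) (Fin (n + 2)) (ZMod 2)} (h00 : X 0 0 = Y 0 0) (h01 : X 0 1 = Y 0 1)
    (h02 : ∀ j : Fin n, X 0 j.succ.succ = Y 0 j.succ.succ) (h10 : X 1 0 = Y 1 0) (h11 : X 1 1 = Y 1 1)
    (h12 : ∀ j : Fin n, X 1 j.succ.succ = Y 1 j.succ.succ) (h20 : ∀ i : Fin n, X i.succ.succ 0 = Y i.succ.succ 0)
    (h21 : ∀ i : Fin n, X i.succ.succ 1 = Y i.succ.succ 1)
    (h22 : ∀ i j : Fin n, X i.succ.succ j.succ.succ = Y i.succ.succ j.succ.succ) : X = Y := by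
  ext i j
  refine Fin.cases ?_ (fun i => Fin.cases ?_ (fun i => ?_) i) i <;>
    refine Fin.cases ?_ (fun j => Fin.cases ?_ (fun j => ?_) j) j
  exacts [h00, h01, h02 j, h10, h11, h12 j, h20 i, h21 i, h22 i j]

section
variable (a b : Fin n → ZMod 2) (c : ZMod 2) (A : Matrix (Fin n) (Fin n) (ZMod 2)) (i j : Fin n)
@[simp] theorem blk00 : blk a b c A 0 0 = 1 := rfl
@[simp] theorem blk01 : blk a b c A 0 1 = c := rfl
@[simp] theorem blk02 : blk a b c A 0 j.succ.succ = a j := rfl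
@[simp] theorem blk10 : blk a b c A 1 0 = 0 := rfl
@[simp] theorem blk11 : blk a b c A 1 1 = 1 := rfl
@[simp] theorem blk12 : blk a b c A 1 j.succ.succ = 0 := rfl
@[simp] theorem blk20 : blk a b c A i.succ.succ 0 = 0 := rfl
@[simp] theorem blk21 : blk a b c A i.succ.succ 1 = b i := rfl
@[simp] theorem blk22 : blk a b c A i.succ.succ j.succ.succ = A i j := rfl
end

theorem sum3 (f : Fin (n + 2) → ZMod 2) : ∑ k, f k = f 0 + (f 1 + ∑ k : Fin n, f k.succ.succ) := by
  rw [Fin.sum_univ_succ, Fin.sum_univ_succ]; rfl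

theorem blk_mul (a b a' b' : Fin n → ZMod 2) (c c' : ZMod 2) (A A' : Matrix (Fin n) (Fin n) (ZMod 2)) :
    blk a b c A * blk a' b' c' A' = blk (a' + a ᵥ* A') (b + A *ᵥ b') (c' + (c + a ⬝ᵥ b')) (A * A') := by
  refine ext3 ?_ ?_ (fun j => ?_) ?_ ?_ (fun j => ?_) (fun i => ?_) (fun i => ?_) (fun i j => ?_) <;>
    simp [mul_apply, sum3, vecMul, mulVec, dotProduct]

theorem blk_inj {a b a' b' : Fin n → ZMod 2} {c c' : ZMod 2} {A A' : Matrix (Fin n) (Fin n) (ZMod 2)}
    (h : blk a b c A = blk a' b' c' A') : a = a' ∧ b = b' ∧ c = c' ∧ A = A' :=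
  ⟨funext fun j => congrFun (congrFun h 0) j.succ.succ, funext fun i => congrFun (congrFun h i.succ.succ) 1,
    congrFun (congrFun h 0) 1, Matrix.ext fun i j => congrFun (congrFun h i.succ.succ) j.succ.succ⟩

theorem ss_ne_one (i : Fin n) : i.succ.succ ≠ 1 := fun h => Fin.succ_ne_zero i (Fin.succ_injective _ h)

theorem blk_one : blk (0 : Fin n → ZMod 2) 0 0 1 = 1 := by
  refine ext3 ?_ ?_ (fun j => ?_) ?_ ?_ (fun j => ?_) (fun i => ?_) (fun i => ?_) (fun i j => ?_) <;>
    simp [one_apply, ss_ne_one, (ss_ne_one _).symm, (Fin.succ_ne_zero _).symm]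

theorem blk_tv : blk (0 : Fin n → ZMod 2) 0 1 1 = transvection 0 1 1 := by
  refine ext3 ?_ ?_ (fun j => ?_) ?_ ?_ (fun j => ?_) (fun i => ?_) (fun i => ?_) (fun i j => ?_) <;>
    simp [transvection, one_apply, single_apply, ss_ne_one, (ss_ne_one _).symm, (Fin.succ_ne_zero _).symm]

theorem eq_blk {X Y : Matrix (Fin (n + 2)) (Fin (n + 2)) (ZMod 2)} (hXY : X * Y = 1)
    (h : X * blk 0 0 1 1 = blk 0 0 1 1 * X) : ∃ a b c A, X = blk a b c A := by
  have e := fun i j => congrFun (congrFun h i) j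
  have h20 : ∀ i : Fin n, X i.succ.succ 0 = 0 := fun i => by
    simpa [mul_apply, sum3, one_apply] using e i.succ.succ 1
  have h10 : X 1 0 = 0 := by simpa [mul_apply, sum3, one_apply] using e 1 1
  have h12 : ∀ j : Fin n, X 1 j.succ.succ = 0 := fun j => by
    simpa [mul_apply, sum3, one_apply] using e 0 j.succ.succ
  have h11 : X 1 1 = 1 := by
    have := congrFun (congrFun hXY 1) 1
    simp only [mul_apply, sum3, h10, h12, zero_mul, zero_add, Finset.sum_const_zero, add_zero,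
      one_apply_eq] at this
    revert this; generalize X 1 1 = x; generalize Y 1 1 = y; revert x y; decide
  have h00 : X 0 0 = 1 := by
    have := e 0 1
    simp [mul_apply, sum3, h11] at this
    revert this; generalize X 0 0 = x; generalize X 0 1 = y; revert x y; decide
  exact ⟨fun j => X 0 j.succ.succ, fun i => X i.succ.succ 1, X 0 1, of fun i j => X i.succ.succ j.succ.succ,
    ext3 h00 rfl (fun _ => rfl) h10 h11 h12 h20 (fun _ => rfl) fun _ _ => rfl⟩

theorem add_self' (a : Fin n → ZMod 2) : a + a = 0 := funext fun _ => CharTwo.add_self_eq_zero _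

theorem main {G : Type*} [Group G] [Finite G] (hn : 1 ≤ n)
    (ρ : G →* Matrix (Fin (n + 2)) (Fin (n + 2)) (ZMod 2)) (hρ : Function.Injective ρ) {z : G}
    (hz : ρ z = transvection 0 1 1)
    (hs : ∀ X Y : Matrix (Fin (n + 2)) (Fin (n + 2)) (ZMod 2), X * Y = 1 →
      (∀ j, X 1 j = (1 : Matrix (Fin (n + 2)) (Fin (n + 2)) (ZMod 2)) 1 j) → ∃ g, ρ g = X)
    {Q : Subgroup G} (hQ : Q = (pCore 2 (centralizer ({z} : Set G))).map (centralizer ({z} : Set G)).subtype) :
    IsExtraspecial 2 Q ∧ Nat.card Q = 2 ^ (2 * n + 1) ∧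
      (∃ E : Subgroup G, E ≤ Q ∧ IsElementaryAbelian 2 E ∧ Nat.card E = 2 ^ (n + 1)) ∧
      IsLargeExtraspecial Q ∧ ∃ K : Subgroup G, K ≤ centralizer ({z} : Set G) ∧ Q ⊓ K = ⊥ ∧
        Q ⊔ K = centralizer ({z} : Set G) ∧ Nonempty (K ≃* GL (Fin n) (ZMod 2)) := by
  rw [← blk_tv] at hz
  have hex : ∀ a b c (A : GL (Fin n) (ZMod 2)), ∃ g, ρ g = blk a b c A := fun a b c A => by
    refine hs _ (blk (a ᵥ* (A⁻¹ : GL _ _)) ((A⁻¹ : GL _ _) *ᵥ b) (c + a ⬝ᵥ ((A⁻¹ : GL _ _) *ᵥ b))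
      (A⁻¹ : GL _ _)) ?_ fun j => ?_
    · rw [blk_mul, mulVec_mulVec, Units.mul_inv, one_mulVec, add_self', add_self',
        CharTwo.add_self_eq_zero, blk_one]
    · rw [← blk_one]
      exact Fin.cases rfl (fun j => Fin.cases rfl (fun _ => rfl) j) j
  choose s hsρ using hex
  have hC : ∀ {x}, x ∈ centralizer ({z} : Set G) ↔ ∃ a b c A, ρ x = blk a b c A := fun {x} => by
    rw [mem_centralizer_singleton_iff]
    refine ⟨fun h => eq_blk (Y := ρ x⁻¹) (by rw [← map_mul, mul_inv_cancel, map_one])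
      (by rw [← hz, ← map_mul, h, map_mul]), fun ⟨a, b, c, A, h⟩ => hρ ?_⟩
    rw [map_mul, map_mul, h, hz, blk_mul, blk_mul]
    simp [add_comm]
  let f0 : centralizer ({z} : Set G) →* Matrix (Fin n) (Fin n) (ZMod 2) :=
    { toFun := fun x => of fun i j => ρ x i.succ.succ j.succ.succ
      map_one' := by rw [OneMemClass.coe_one, map_one, ← blk_one]; rfl
      map_mul' := fun x y => by
        obtain ⟨a, b, c, A, h⟩ := hC.1 x.2
        obtain ⟨a', b', c', A', h'⟩ := hC.1 y.2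
        rw [coe_mul, map_mul, h, h', blk_mul]; rfl }
  let f : centralizer ({z} : Set G) →* GL (Fin n) (ZMod 2) := f0.toHomUnits
  have hf : ∀ (x : centralizer ({z} : Set G)) {a b c A}, ρ x = blk a b c A → (f x : Matrix _ _ _) = A :=
    fun x a b c A h => by
      change (of fun i j => ρ x i.succ.succ j.succ.succ) = A
      rw [h]; rfl
  have hsC : ∀ a b c A, s a b c A ∈ centralizer ({z} : Set G) := fun a b c A => hC.2 ⟨_, _, _, _, hsρ a b c A⟩
  have hfs : Function.Surjective f := fun A => ⟨⟨_, hsC 0 0 0 A⟩, Units.ext (hf _ (hsρ _ _ _ _))⟩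
  have hker : ∀ {x}, x ∈ f.ker.map (centralizer ({z} : Set G)).subtype ↔ ∃ a b c, ρ x = blk a b c 1 :=
    fun {x} => ⟨fun ⟨y, hy, e⟩ => by
      obtain ⟨a, b, c, A, h⟩ := hC.1 y.2
      have := hf y h
      rw [show f y = 1 from hy] at this
      exact ⟨a, b, c, by rw [← e, coe_subtype, h, ← this]; rfl⟩,
    fun ⟨a, b, c, h⟩ => ⟨⟨x, hC.2 ⟨_, _, _, _, h⟩⟩, Units.ext (hf _ h), rfl⟩⟩
  set R := f.ker.map (centralizer ({z} : Set G)).subtype with hR
  have hzp : ∀ {x c}, ρ x = blk 0 0 c 1 → x ∈ zpowers z := fun {x c} h => by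
    have : c = 0 ∨ c = 1 := by clear h; revert c; decide
    rcases this with rfl | rfl
    · rw [hρ (h.trans (blk_one.trans ρ.map_one.symm))]; exact one_mem _
    · rw [hρ (h.trans hz.symm)]; exact mem_zpowers _
  have hsq : ∀ x ∈ R, x ^ 2 ∈ zpowers z := fun x hx => by
    obtain ⟨a, b, c, h⟩ := hker.1 hx
    refine hzp (c := c + (c + a ⬝ᵥ b)) ?_
    rw [sq, map_mul, h, blk_mul, vecMul_one, one_mulVec, add_self', add_self', mul_one]
  have hzz : z * z = 1 := hρ (by rw [map_mul, hz, blk_mul, map_one, ← blk_one]; simp; rfl)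
  have hz1 : z ≠ 1 := fun h => by
    rw [h, map_one, ← blk_one] at hz
    exact absurd (blk_inj hz).2.2.1 (by decide)
  have hzR : z ∈ R := hker.2 ⟨_, _, _, hz⟩
  have hcard : Nat.card R = 2 ^ (2 * n + 1) := by
    have : Nat.card ((Fin n → ZMod 2) × (Fin n → ZMod 2) × ZMod 2) = 2 ^ (2 * n + 1) := by
      simp only [Nat.card_prod, Nat.card_fun, Nat.card_zmod, Nat.card_fin]
      ring
    rw [← this]
    refine (Nat.card_eq_of_bijective (fun p => (⟨s p.1 p.2.1 p.2.2 1, hker.2 ⟨_, _, _, hsρ _ _ _ _⟩⟩ : R))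
      ⟨fun p q h => ?_, fun x => ?_⟩).symm
    · have := congrArg (fun x : R => ρ x) h
      simp only [hsρ] at this
      obtain ⟨h1, h2, h3, -⟩ := blk_inj this
      exact Prod.ext h1 (Prod.ext h2 h3)
    · obtain ⟨a, b, c, h⟩ := hker.1 x.2
      exact ⟨(a, b, c), Subtype.ext (hρ ((hsρ _ _ _ _).trans h.symm))⟩
  have hQR : Q = R := by
    rw [hQ, ← Core.comap_pCore_eq hfs (IsPGroup.of_card (n := 2 * n + 1)
      ((Core.card_map_subtype _).symm.trans hcard)), pCore_GL hn, MonoidHom.comap_bot]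
  have hL : IsLargeExtraspecial R := by
    obtain ⟨i0⟩ : Nonempty (Fin n) := ⟨⟨0, hn⟩⟩
    obtain ⟨g, hg⟩ := hs (transvection i0.succ.succ 0 1) (transvection i0.succ.succ 0 1)
      (by rw [transvection_mul_transvection_same _ _ (Fin.succ_ne_zero _), CharTwo.add_self_eq_zero,
        transvection_zero]) (fun j => by simp [transvection, single_apply, ss_ne_one])
    have hgz : ρ (g * z * g⁻¹) = blk 0 (Pi.single i0 1) 1 1 := by
      obtain ⟨w, hw⟩ : ∃ w, ρ w = blk 0 (Pi.single i0 1) 1 1 := ⟨_, hsρ _ _ _ 1⟩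
      rw [← hw]
      refine congrArg ρ (mul_inv_eq_of_eq_mul (hρ ?_))
      rw [map_mul, map_mul, hw, hg, hz]
      refine ext3 ?_ ?_ (fun j => ?_) ?_ ?_ (fun j => ?_) (fun i => ?_) (fun i => ?_) (fun i j => ?_) <;>
        simp [mul_apply, sum3, transvection, one_apply, single_apply, ss_ne_one, (ss_ne_one _).symm,
          (Fin.succ_ne_zero _).symm, Pi.single_apply, eq_comm]
    have := isLarge_map (f := MonoidHom.id G) Function.surjective_id hzR hzz hz1 (map_subtype_le _) hsq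
      (fun x hx => ?_) (fun x hx => ?_) (g := g) (hker.2 ⟨_, _, _, hgz⟩) fun h => ?_
    · rwa [Subgroup.map_id] at this
    · have hx' : ∀ y ∈ R, x * y = y * x := fun y hy =>
        commutatorElement_eq_one_iff_mul_comm.1 (hx y hy)
      obtain ⟨a, b, c, A, h⟩ := hC.1 (mem_centralizer_singleton_iff.2 (hx' z hzR))
      have e : ∀ a' b', blk a b c A * blk a' b' 0 1 = blk a' b' 0 1 * blk a b c A := fun a' b' => by
        have h1 : ρ (s a' b' 0 1) = blk a' b' 0 1 := hsρ _ _ _ _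
        rw [← h, ← h1, ← map_mul, ← map_mul, hx' _ (hker.2 ⟨_, _, _, h1⟩)]
      simp only [blk_mul] at e
      have hA : A = 1 := toLin'.injective (LinearMap.ext fun v => by
        simpa [add_comm] using (blk_inj (e 0 v)).2.1)
      have ha : a = 0 := funext fun j => by simpa using (blk_inj (e 0 (Pi.single j 1))).2.2.1
      have hb : b = 0 := funext fun j => by simpa [ha] using (blk_inj (e (Pi.single j 1) 0)).2.2.1
      exact hzp (by rw [MonoidHom.id_apply, h, hA, ha, hb])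
    · exact Core.le_normalizer_map_subtype _ (mem_centralizer_singleton_iff.2
        (commutatorElement_eq_one_iff_mul_comm.1 hx))
    · have := congrFun (blk_inj (hgz.symm.trans ((congrArg ρ h).trans hz))).2.1 i0
      simp at this
  subst hQR
  refine ⟨hL.1, hcard, ?_, hL, ?_⟩
  · let e : Multiplicative ((Fin n → ZMod 2) × ZMod 2) →* G := MonoidHom.mk'
      (fun p => s p.toAdd.1 0 p.toAdd.2 1) fun p q => hρ (by
        rw [ρ.map_mul, hsρ, hsρ, hsρ, blk_mul]; simp [add_comm])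
    have he : Function.Injective e := fun p q h => by
      have := congrArg ρ h
      simp only [e, MonoidHom.mk'_apply, hsρ] at this
      obtain ⟨h1, -, h3, -⟩ := blk_inj this
      exact Multiplicative.toAdd.injective (Prod.ext h1 h3)
    refine ⟨e.range, ?_, ⟨inferInstance, ?_⟩, ?_⟩
    · rintro _ ⟨p, rfl⟩
      exact hker.2 ⟨_, _, _, hsρ _ _ _ _⟩
    · rintro _ ⟨p, rfl⟩
      rw [← map_pow, sq, show p * p = 1 from Multiplicative.toAdd.injective
        (Prod.ext (add_self' _) (CharTwo.add_self_eq_zero _)), map_one]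
    · rw [← Nat.card_congr (MonoidHom.ofInjective he).toEquiv, Nat.card_congr Multiplicative.toAdd]
      simp only [Nat.card_prod, Nat.card_fun, Nat.card_zmod, Nat.card_fin]
      ring
  · let k : GL (Fin n) (ZMod 2) →* G := MonoidHom.mk' (fun A => s 0 0 0 A) fun A B => hρ (by
        rw [map_mul, hsρ, hsρ, hsρ, blk_mul]; simp)
    have hk : Function.Injective k := fun A B h => by
      have := congrArg ρ h
      simp only [k, MonoidHom.mk'_apply, hsρ] at this
      exact Units.ext (blk_inj this).2.2.2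
    have hkC : k.range ≤ centralizer ({z} : Set G) := by
      rintro _ ⟨A, rfl⟩
      exact hsC _ _ _ _
    refine ⟨k.range, hkC, eq_bot_iff.2 ?_, le_antisymm (sup_le (map_subtype_le _) hkC) fun x hx => ?_,
      ⟨(MonoidHom.ofInjective hk).symm⟩⟩
    · rintro _ ⟨hx, A, rfl⟩
      obtain ⟨a, b, c, h⟩ := hker.1 hx
      have : A = 1 := Units.ext (blk_inj ((hsρ 0 0 0 A).symm.trans h)).2.2.2
      rw [this, map_one]; exact one_mem _
    · rw [← inv_mul_cancel_right x (k (f ⟨x, hx⟩))]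
      refine mul_mem (mem_sup_left ⟨⟨x, hx⟩ * ⟨_, hkC ⟨f ⟨x, hx⟩, rfl⟩⟩⁻¹, ?_, rfl⟩) (mem_sup_right ⟨_, rfl⟩)
      rw [SetLike.mem_coe, MonoidHom.mem_ker, map_mul, map_inv, mul_inv_eq_one]
      exact Units.ext (hf ⟨_, hkC ⟨f ⟨x, hx⟩, rfl⟩⟩ (hsρ _ _ _ _)).symm

end Cfsg.Lib.ES.Tv
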